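import Mathlib
import Cfsg.Agent.Lib.Helper14.DG33.Defs
import Cfsg.Agent.Lib.Helper86.SU3Anti

/-!
# DG33 (S3670), package [RAW]: the Borel datum in the antidiagonal model `UJ 3 σ` of `SU(3,3)`

Model file of the sub-project: the subgroups `Bm`, `Pm`, `Zm`, the elements `tm ζ`, `wm`, and one
`Prop` per group of fields of `RawDatum`.
-/

set_option autoImplicit false

namespace Cfsg.Agent.Lib.Helper19.DG33

open Matrix Cfsg.Agent.Lib.Helper45 Cfsg.Agent.Lib.Helper86.Un Cfsg.Agent.Lib.Helper86.SU3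
  Cfsg.Agent.Lib.Helper14.DG33

universe u

section model

variable {F : Type u} [Field F] [Fintype F]

/-- the matrix of the inverse is the adjoint -/
theorem mat_inv' {σ : F →+* F} (g : UJ 3 σ) : mat g⁻¹ = adj σ (mat g) := by
  have h1 : mat g * mat g⁻¹ = 1 := by rw [← map_mul, mul_inv_cancel, map_one]
  have h2 : adj σ (mat g) * mat g = 1 := (valid_mat g).2
  calc mat g⁻¹ = (adj σ (mat g) * mat g) * mat g⁻¹ := by rw [h2, Matrix.one_mul]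
    _ = adj σ (mat g) := by rw [Matrix.mul_assoc, h1, Matrix.mul_one]

theorem mat_one' {σ : F →+* F} : mat (1 : UJ 3 σ) = 1 := map_one _

theorem mat_mul' {σ : F →+* F} (g h : UJ 3 σ) : mat (g * h) = mat g * mat h := map_mul _ _ _

/-- the involution `x ↦ x ^ 3` is an involution -/
theorem sig_sig (hF : Fintype.card F = 3 ^ 2) (x : F) : sigmaQ hF (sigmaQ hF x) = x :=
  conj_conj hF x

/-- the Borel subgroup: upper triangular matrices -/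
def Bm (hF : Fintype.card F = 3 ^ 2) : Subgroup (UJ 3 (sigmaQ hF)) where
  carrier := {g | mat g 1 0 = 0 ∧ mat g 2 0 = 0 ∧ mat g 2 1 = 0}
  mul_mem' := by
    rintro g h ⟨g1, g2, g3⟩ ⟨h1, h2, h3⟩
    simp only [Set.mem_setOf_eq, mat_mul', Matrix.mul_apply, Fin.sum_univ_three]
    simp [g1, g2, g3, h1, h2, h3]
  one_mem' := by
    simp only [Set.mem_setOf_eq, mat_one']
    simp [Matrix.one_apply]
  inv_mem' := by
    rintro g ⟨g1, g2, g3⟩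
    simp only [Set.mem_setOf_eq, mat_inv', adj_apply]
    refine ⟨?_, ?_, ?_⟩
    · show sigmaQ hF (mat g 2 1) = 0
      rw [g3, map_zero]
    · show sigmaQ hF (mat g 2 0) = 0
      rw [g2, map_zero]
    · show sigmaQ hF (mat g 1 0) = 0
      rw [g1, map_zero]

theorem mem_Bm (hF : Fintype.card F = 3 ^ 2) (g : UJ 3 (sigmaQ hF)) :
    g ∈ Bm hF ↔ mat g 1 0 = 0 ∧ mat g 2 0 = 0 ∧ mat g 2 1 = 0 := Iff.rfl

/-- the unipotent radical: upper unitriangular matrices -/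
def Pm (hF : Fintype.card F = 3 ^ 2) : Subgroup (UJ 3 (sigmaQ hF)) where
  carrier := {g | g ∈ Bm hF ∧ mat g 0 0 = 1 ∧ mat g 1 1 = 1 ∧ mat g 2 2 = 1}
  mul_mem' := by
    rintro g h ⟨gB, g1, g2, g3⟩ ⟨hB, h1, h2, h3⟩
    refine ⟨(Bm hF).mul_mem gB hB, ?_⟩
    obtain ⟨ga, gb, gc⟩ := gB
    obtain ⟨ha, hb, hc⟩ := hB
    simp only [mat_mul', Matrix.mul_apply, Fin.sum_univ_three]
    simp [g1, g2, g3, h1, h2, h3, ga, gb, gc, ha, hb, hc]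
  one_mem' := by
    refine ⟨(Bm hF).one_mem, ?_⟩
    simp only [mat_one']
    simp [Matrix.one_apply]
  inv_mem' := by
    rintro g ⟨gB, g1, g2, g3⟩
    refine ⟨(Bm hF).inv_mem gB, ?_⟩
    simp only [mat_inv', adj_apply]
    refine ⟨?_, ?_, ?_⟩
    · show sigmaQ hF (mat g 2 2) = 1
      rw [g3, map_one]
    · show sigmaQ hF (mat g 1 1) = 1
      rw [g2, map_one]
    · show sigmaQ hF (mat g 0 0) = 1
      rw [g1, map_one]

theorem mem_Pm (hF : Fintype.card F = 3 ^ 2) (g : UJ 3 (sigmaQ hF)) :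
    g ∈ Pm hF ↔ g ∈ Bm hF ∧ mat g 0 0 = 1 ∧ mat g 1 1 = 1 ∧ mat g 2 2 = 1 := Iff.rfl

/-- the centre of the unipotent radical -/
def Zm (hF : Fintype.card F = 3 ^ 2) : Subgroup (UJ 3 (sigmaQ hF)) where
  carrier := {g | g ∈ Pm hF ∧ mat g 0 1 = 0 ∧ mat g 1 2 = 0}
  mul_mem' := by
    rintro g h ⟨gP, g1, g2⟩ ⟨hP, h1, h2⟩
    refine ⟨(Pm hF).mul_mem gP hP, ?_⟩
    obtain ⟨⟨ga, gb, gc⟩, gd, ge, gf⟩ := gP
    obtain ⟨⟨ha, hb, hc⟩, hd, he, hf⟩ := hP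
    simp only [mat_mul', Matrix.mul_apply, Fin.sum_univ_three]
    simp [g1, g2, h1, h2, ga, gb, gc, ha, hb, hc]
  one_mem' := by
    refine ⟨(Pm hF).one_mem, ?_⟩
    simp only [mat_one']
    simp [Matrix.one_apply]
  inv_mem' := by
    rintro g ⟨gP, g1, g2⟩
    refine ⟨(Pm hF).inv_mem gP, ?_⟩
    simp only [mat_inv', adj_apply]
    refine ⟨?_, ?_⟩
    · show sigmaQ hF (mat g 1 2) = 0
      rw [g2, map_zero]
    · show sigmaQ hF (mat g 0 1) = 0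
      rw [g1, map_zero]

theorem mem_Zm (hF : Fintype.card F = 3 ^ 2) (g : UJ 3 (sigmaQ hF)) :
    g ∈ Zm hF ↔ g ∈ Pm hF ∧ mat g 0 1 = 0 ∧ mat g 1 2 = 0 := Iff.rfl

/-- the torus element attached to a unit `ζ` -/
noncomputable def tm (hF : Fintype.card F = 3 ^ 2) (ζ : Fˣ) : UJ 3 (sigmaQ hF) := torU (sig_sig hF) ζ

/-- the Weyl involution -/
noncomputable def wm (hF : Fintype.card F = 3 ^ 2) : UJ 3 (sigmaQ hF) := fU (sigmaQ hF)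

theorem mat_tm (hF : Fintype.card F = 3 ^ 2) (ζ : Fˣ) :
    mat (tm hF ζ) = T3 (sigmaQ hF) (ζ : F) := rfl

theorem mat_wm (hF : Fintype.card F = 3 ^ 2) : mat (wm hF) = f3 F := rfl

end model

/-! ## Sub-packages of [RAW] (each for all `F` of order 9; `ζ` a unit of order 8) -/

/-- [RBRUHAT] -/
def PkgRBruhat : Prop := ∀ (F : Type u) [Field F] [Fintype F] (hF : Fintype.card F = 3 ^ 2),
  ∀ g : UJ 3 (sigmaQ hF), g ∉ Bm hF → ∃ b₁ ∈ Bm hF, ∃ b₂ ∈ Bm hF, g = b₁ * wm hF * b₂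

/-- [RINTER] -/
def PkgRInter : Prop := ∀ (F : Type u) [Field F] [Fintype F] (hF : Fintype.card F = 3 ^ 2)
  (ζ : Fˣ), orderOf ζ = 8 →
  ∀ b ∈ Bm hF, ((wm hF)⁻¹ * b * wm hF ∈ Bm hF ↔ b ∈ Subgroup.zpowers (tm hF ζ))

/-- [RNORM] `B` normalises `P` and `Z` -/
def PkgRNorm : Prop := ∀ (F : Type u) [Field F] [Fintype F] (hF : Fintype.card F = 3 ^ 2),
  (∀ b ∈ Bm hF, ∀ p ∈ Pm hF, b * p * b⁻¹ ∈ Pm hF) ∧
  (∀ b ∈ Bm hF, ∀ z ∈ Zm hF, b * z * b⁻¹ ∈ Zm hF)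

/-- [RPZ] `Z` is central in `P`, `P / Z` is abelian, `Z` is the whole centre, `P ≠ Z` -/
def PkgRPZ : Prop := ∀ (F : Type u) [Field F] [Fintype F] (hF : Fintype.card F = 3 ^ 2),
  (∀ z ∈ Zm hF, ∀ p ∈ Pm hF, z * p = p * z) ∧
  (∀ p ∈ Pm hF, ∀ q ∈ Pm hF, p * q * p⁻¹ * q⁻¹ ∈ Zm hF) ∧
  (∀ p ∈ Pm hF, p ∉ Zm hF → ∃ q ∈ Pm hF, p * q ≠ q * p) ∧
  (∃ p ∈ Pm hF, p ∉ Zm hF)

/-- [RT] the action of `t` on `Z` and on `P / Z` -/
def PkgRT : Prop := ∀ (F : Type u) [Field F] [Fintype F] (hF : Fintype.card F = 3 ^ 2)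
  (ζ : Fˣ), orderOf ζ = 8 →
  (∀ z ∈ Zm hF, tm hF ζ * z * (tm hF ζ)⁻¹ = z⁻¹) ∧
  (∀ k : ℕ, 0 < k → k < 8 → ∀ p ∈ Pm hF,
    tm hF ζ ^ k * p * (tm hF ζ ^ k)⁻¹ * p⁻¹ ∈ Zm hF → p ∈ Zm hF)

/-- [RBPT] `B = P ⟨t⟩` -/
def PkgRBPT : Prop := ∀ (F : Type u) [Field F] [Fintype F] (hF : Fintype.card F = 3 ^ 2)
  (ζ : Fˣ), orderOf ζ = 8 → ∀ b ∈ Bm hF, ∃ k : ℕ, b * tm hF ζ ^ k ∈ Pm hF

/-- [RPERF] the model is perfect (from the isomorphism with `PSU 3 F 3` and landed S0283) -/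
def PkgRPerf : Prop := PkgIso.{u} →
  ∀ (F : Type u) [Field F] [Fintype F] (hF : Fintype.card F = 3 ^ 2),
    commutator (UJ 3 (sigmaQ hF)) = ⊤

end Cfsg.Agent.Lib.Helper19.DG33
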