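import Mathlib
import Cfsg.Agent.Lib.Helper19.DG33.Model

/-!
# DG33 (S3670), package [RAW]: assembly of the raw Borel datum from the sub-packages
-/

set_option autoImplicit false

namespace Cfsg.Agent.Lib.Helper19.DG33

open Matrix Cfsg.Agent.Lib.Helper45 Cfsg.Agent.Lib.Helper86.Un Cfsg.Agent.Lib.Helper86.SU3
  Cfsg.Agent.Lib.Helper86.SL3 Cfsg.Agent.Lib.Helper14.DG33

universe u

section easy

variable {F : Type u} [Field F] [Fintype F]

theorem card_units9 (hF : Fintype.card F = 3 ^ 2) : Nat.card Fˣ = 8 := by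
  rw [Nat.card_units, Nat.card_eq_fintype_card, hF]
  norm_num

theorem exists_zeta (hF : Fintype.card F = 3 ^ 2) : ∃ ζ : Fˣ, orderOf ζ = 8 := by
  obtain ⟨g, hg⟩ := IsCyclic.exists_generator (α := Fˣ)
  refine ⟨g, ?_⟩
  rw [orderOf_eq_card_of_forall_mem_zpowers hg, card_units9 hF]

theorem tm_pow (hF : Fintype.card F = 3 ^ 2) (ζ : Fˣ) (k : ℕ) :
    tm hF ζ ^ k = tm hF (ζ ^ k) := by
  unfold tm
  rw [map_pow]

theorem raw_cardG (hF : Fintype.card F = 3 ^ 2) : Nat.card (UJ 3 (sigmaQ hF)) = 6048 := by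
  rw [card_UJ3 hF 2 rfl]
  norm_num

theorem raw_tB (hF : Fintype.card F = 3 ^ 2) (ζ : Fˣ) : tm hF ζ ∈ Bm hF := by
  rw [mem_Bm, mat_tm]
  unfold T3 D3
  refine ⟨?_, ?_, ?_⟩ <;> simp

theorem raw_ordt (hF : Fintype.card F = 3 ^ 2) (ζ : Fˣ) (hζ : orderOf ζ = 8) :
    orderOf (tm hF ζ) = 8 := by
  unfold tm
  rw [orderOf_injective (torU (sig_sig hF)) (torU_injective (sig_sig hF)) ζ, hζ]

theorem raw_wB (hF : Fintype.card F = 3 ^ 2) : wm hF ∉ Bm hF := by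
  rw [mem_Bm, mat_wm]
  unfold Cfsg.Agent.Lib.Helper86.SU3.f3
  intro h
  have h2 := h.2.1
  simp at h2

theorem wm_inv (hF : Fintype.card F = 3 ^ 2) : (wm hF)⁻¹ = wm hF := by
  rw [inv_eq_iff_mul_eq_one]
  exact fU_mul

theorem raw_wt (hF : Fintype.card F = 3 ^ 2) (ζ : Fˣ) (hζ : orderOf ζ = 8) :
    (wm hF)⁻¹ * tm hF ζ * wm hF = tm hF ζ ^ 5 := by
  rw [wm_inv, tm_pow]
  unfold tm wm
  rw [fU_tor]
  congr 1
  apply Units.ext
  rw [cjU_val, sigmaQ_apply, Units.val_pow_eq_pow_val]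
  have h8 : ζ ^ 8 = 1 := by rw [← hζ]; exact pow_orderOf_eq_one ζ
  have h8' : (ζ : F) ^ 8 = 1 := by rw [← Units.val_pow_eq_pow_val, h8, Units.val_one]
  have hne : (ζ : F) ^ 3 ≠ 0 := pow_ne_zero _ ζ.ne_zero
  rw [inv_eq_iff_eq_inv]
  exact eq_inv_of_mul_eq_one_left (by rw [← pow_add]; exact h8')

theorem raw_PT (hF : Fintype.card F = 3 ^ 2) (ζ : Fˣ) (k : ℕ)
    (h : tm hF ζ ^ k ∈ Pm hF) : tm hF ζ ^ k = 1 := by
  rw [tm_pow] at h ⊢
  have h0 := ((mem_Pm hF _).1 h).2.1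
  rw [mat_tm] at h0
  have h1 : ζ ^ k = 1 := by
    apply Units.ext
    rw [Units.val_one]
    unfold T3 D3 at h0
    simpa using h0
  rw [h1]
  unfold tm
  rw [map_one]

end easy

/-- [RAW] from its sub-packages -/
theorem pkgRaw_of (hBr : PkgRBruhat.{u}) (hInter : PkgRInter.{u}) (hNorm : PkgRNorm.{u})
    (hPZ : PkgRPZ.{u}) (hT : PkgRT.{u}) (hBPT : PkgRBPT.{u}) (hPerf : PkgRPerf.{u})
    (hIso : PkgIso.{u}) : PkgRaw.{u} := by
  intro F _ _ hF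
  obtain ⟨ζ, hζ⟩ := exists_zeta hF
  refine ⟨Bm hF, Pm hF, Zm hF, tm hF ζ, wm hF, ?_⟩
  exact
    { cardG := raw_cardG hF
      ZP := fun g hg => ((mem_Zm hF g).1 hg).1
      PB := fun g hg => ((mem_Pm hF g).1 hg).1
      tB := raw_tB hF ζ
      ordt := raw_ordt hF ζ hζ
      wB := raw_wB hF
      bruhat := hBr F hF
      inter := hInter F hF ζ hζ
      wt := raw_wt hF ζ hζ
      Pnorm := (hNorm F hF).1
      Znorm := (hNorm F hF).2
      Zcent := (hPZ F hF).1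
      Pcomm := (hPZ F hF).2.1
      Pnc := (hPZ F hF).2.2.1
      Pne := (hPZ F hF).2.2.2
      tinv := (hT F hF ζ hζ).1
      tfree := (hT F hF ζ hζ).2
      BPT := hBPT F hF ζ hζ
      PT := fun k hk => raw_PT hF ζ k hk
      perfect := hPerf hIso F hF }

end Cfsg.Agent.Lib.Helper19.DG33
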