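import Mathlib
import Cfsg.Agent.Lib.Helper19.DG33.Raw

/-!
# DG33 (S3670), sub-package [RBPT]: `B = P ⟨t⟩`, and entry lemmas for the unitarity relation
-/

set_option autoImplicit false

namespace Cfsg.Agent.Lib.Helper19.DG33

open Matrix Cfsg.Agent.Lib.Helper45 Cfsg.Agent.Lib.Helper86.Un Cfsg.Agent.Lib.Helper86.SU3
  Cfsg.Agent.Lib.Helper86.SL3 Cfsg.Agent.Lib.Helper14.DG33

universe u

section ents

variable {F : Type u} [Field F] [Fintype F]

/-- entry `(x, y)` of the unitarity relation `adj σ M * M = 1` -/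
theorem unit_ent {σ : F →+* F} (g : UJ 3 σ) (x y : Fin 3) :
    σ (mat g 2 x.rev) * mat g 0 y + σ (mat g 1 x.rev) * mat g 1 y + σ (mat g 0 x.rev) * mat g 2 y
      = if x = y then 1 else 0 := by
  have e := congrFun (congrFun (valid_mat g).2 x) y
  rw [Matrix.mul_apply, Fin.sum_univ_three, Matrix.one_apply] at e
  exact e

theorem Bm_diag (hF : Fintype.card F = 3 ^ 2) {b : UJ 3 (sigmaQ hF)} (hb : b ∈ Bm hF) :
    sigmaQ hF (mat b 0 0) * mat b 2 2 = 1 ∧ mat b 0 0 * mat b 1 1 * mat b 2 2 = 1 := by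
  obtain ⟨h1, h2, h3⟩ := (mem_Bm hF b).1 hb
  constructor
  · have e := unit_ent b 2 2
    have r : (2 : Fin 3).rev = 0 := rfl
    rw [r, h1, h2, map_zero, zero_mul, zero_mul, zero_add, zero_add, if_pos rfl] at e
    exact e
  · have d := (valid_mat b).1
    rw [Matrix.det_fin_three, h1, h2, h3] at d
    linear_combination d

theorem zeta_top (hF : Fintype.card F = 3 ^ 2) (ζ : Fˣ) (hζ : orderOf ζ = 8) :
    Subgroup.zpowers ζ = ⊤ := by
  apply Subgroup.eq_top_of_card_eq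
  rw [Nat.card_zpowers, hζ, card_units9 hF]

theorem zeta_pow (hF : Fintype.card F = 3 ^ 2) (ζ : Fˣ) (hζ : orderOf ζ = 8) (a : Fˣ) :
    ∃ k : ℕ, ζ ^ k = a := by
  have hmem : a ∈ Submonoid.powers ζ := by
    rw [mem_powers_iff_mem_zpowers, zeta_top hF ζ hζ]; trivial
  exact hmem

end ents

/-- [RBPT] -/
theorem pkgRBPT : PkgRBPT.{u} := by
  intro F _ _ hF ζ hζ b hb
  obtain ⟨h1, h2⟩ := Bm_diag hF hb
  have ha : mat b 0 0 ≠ 0 := by
    intro h0
    rw [h0, map_zero, zero_mul] at h1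
    exact zero_ne_one h1
  obtain ⟨k, hk⟩ := zeta_pow hF ζ hζ (Units.mk0 _ ha)⁻¹
  refine ⟨k, ?_⟩
  have hc : b * tm hF ζ ^ k ∈ Bm hF := (Bm hF).mul_mem hb ((Bm hF).pow_mem (raw_tB hF ζ) k)
  obtain ⟨c1, c2⟩ := Bm_diag hF hc
  have c00 : mat (b * tm hF ζ ^ k) 0 0 = 1 := by
    rw [tm_pow, mat_mul', mat_tm, Matrix.mul_apply, Fin.sum_univ_three, hk]
    unfold T3 D3
    simp [ha]
  rw [c00, map_one, one_mul] at c1
  rw [c00, c1, one_mul, mul_one] at c2
  exact (mem_Pm hF _).2 ⟨hc, c00, c2, c1⟩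

end Cfsg.Agent.Lib.Helper19.DG33
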