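import Mathlib
import Cfsg.Agent.Lib.Helper19.DG33.Raw
import Cfsg.Agent.S0283

/-!
# DG33 (S3670), sub-package [RPERF]: the model of `SU(3,3)` is perfect
-/

set_option autoImplicit false

namespace Cfsg.Agent.Lib.Helper19.DG33

open Matrix Cfsg.Agent.Lib.Helper45 Cfsg.Agent.Lib.Helper86.Un Cfsg.Agent.Lib.Helper86.SU3
  Cfsg.Agent.Lib.Helper14.DG33

universe u

/-- [RPERF] -/
theorem pkgRPerf : PkgRPerf.{u} := by
  intro hIso F _ _ hF
  obtain ⟨e⟩ := hIso F hF
  haveI hS : IsSimpleGroup (Cfsg.PSU 3 F 3) :=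
    Cfsg.Agent.S0283.result hF 3 le_rfl (by omega)
  obtain ⟨ζ, hζ⟩ := exists_zeta hF
  haveI hS' : IsSimpleGroup (UJ 3 (sigmaQ hF)) := e.isSimpleGroup
  have hn : (commutator (UJ 3 (sigmaQ hF))).Normal := by
    unfold commutator
    infer_instance
  rcases hn.eq_bot_or_eq_top with h | h
  · exfalso
    rw [commutator_eq_bot_iff_center_eq_top] at h
    have hw : wm hF ∈ Subgroup.center (UJ 3 (sigmaQ hF)) := by rw [h]; trivial
    have hc := Subgroup.mem_center_iff.1 hw (tm hF ζ)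
    have h5 := raw_wt hF ζ hζ
    rw [mul_assoc, hc, ← mul_assoc, inv_mul_cancel, one_mul] at h5
    have h4 : tm hF ζ ^ 4 = 1 := by
      have : tm hF ζ ^ 5 = tm hF ζ ^ 4 * tm hF ζ := pow_succ _ 4
      rw [this] at h5
      have h6 : 1 * tm hF ζ = tm hF ζ ^ 4 * tm hF ζ := by rw [one_mul]; exact h5
      exact (mul_right_cancel h6).symm
    have h8 := orderOf_dvd_of_pow_eq_one h4
    rw [raw_ordt hF ζ hζ] at h8
    omega
  · exact h

end Cfsg.Agent.Lib.Helper19.DG33
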